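import Mathlib
import Cfsg.Agent.Spor.NM.Mat

/-! Generated by tools/nm/nminst.py: packed 5 × 5 matrices over the field with 3 elements, fields of 8 bits. -/

set_option autoImplicit false
set_option exponentiation.threshold 10000

namespace Cfsg.Agent.Spor.NM.F3x5

/-- The unreduced product. -/
noncomputable def rawN (A B : ℕ) : ℕ :=
  (Nat.add (Nat.add (Nat.add (Nat.add (Nat.mul (Nat.land A (nat_lit 0x30000000003000000000300000000030000000003))
      (Nat.land B (nat_lit 0xffffffffff)))
    (Nat.mul (Nat.land (Nat.shiftRight A (nat_lit 8)) (nat_lit 0x30000000003000000000300000000030000000003))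
      (Nat.land (Nat.shiftRight B (nat_lit 40)) (nat_lit 0xffffffffff))))
    (Nat.mul (Nat.land (Nat.shiftRight A (nat_lit 16)) (nat_lit 0x30000000003000000000300000000030000000003))
      (Nat.land (Nat.shiftRight B (nat_lit 80)) (nat_lit 0xffffffffff))))
    (Nat.mul (Nat.land (Nat.shiftRight A (nat_lit 24)) (nat_lit 0x30000000003000000000300000000030000000003))
      (Nat.land (Nat.shiftRight B (nat_lit 120)) (nat_lit 0xffffffffff))))
    (Nat.mul (Nat.land (Nat.shiftRight A (nat_lit 32)) (nat_lit 0x30000000003000000000300000000030000000003))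
      (Nat.land (Nat.shiftRight B (nat_lit 160)) (nat_lit 0xffffffffff))))

/-- The identity matrix. -/
def one : ℕ := (nat_lit 0x1000000000001000000000001000000000001000000000001)

theorem rawN_eq (A B : ℕ) : rawN A B = raw 8 5 5 (2 ^ 2 - 1) A B := by
  have h1 : pk (8 * 5) (fun _ => (2 ^ 2 - 1)) 5 = 0x30000000003000000000300000000030000000003 := by decide +kernel
  have h2 : 2 ^ (8 * 5) - 1 = 0xffffffffff := by decide +kernel
  unfold raw
  rw [h1, h2]
  simp only [Finset.sum_range_succ, Finset.sum_range_zero, Nat.zero_add, Nat.mul_zero, Nat.shiftRight_zero,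
    Nat.reduceMul]
  rfl

/-- The product of packed matrices. -/
noncomputable def mul (A B : ℕ) : ℕ := redP (nat_lit 3) (nat_lit 11) (nat_lit 5) (nat_lit 0x7070707070707070707070707070707070707070707070707) (rawN A B)

/-- The test for admissible entries. -/
noncomputable def ent (A : ℕ) : Bool :=
  Nat.beq A (redP (nat_lit 3) (nat_lit 11) (nat_lit 5) (nat_lit 0x7070707070707070707070707070707070707070707070707) (Nat.land A (nat_lit 0x3030303030303030303030303030303030303030303030303)))

theorem spec : MatSpec (ZMod 3) 5 8 (· < 3) (fun x => (x : ZMod 3)) mul one ent := by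
  have h1 : pk 8 (fun _ => 7) (5 * 5) = 0x7070707070707070707070707070707070707070707070707 := by decide +kernel
  have h0 : pk 8 (fun _ => 2 ^ 2 - 1) (5 * 5) = 0x3030303030303030303030303030303030303030303030303 := by decide +kernel
  have h3 : allRange 0 21 (fun x => band (blt (x * 11) (2 ^ 8))
      (Nat.beq (((x * 11) >>> 5) &&& 7) (x / 3))) = true := by decide +kernel
  refine matSpec_prime (m := 11) (s := 5) (B := 20) (c := 7) (c' := 2) (by norm_num) (by norm_num)
    (by norm_num) (by norm_num) (by norm_num) (by norm_num) (fun x hx => ?_) (by norm_num) (fun a b => ?_)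
    (by decide +kernel) fun a ha => ?_
  · simpa using allRange_zero h3 x (by omega)
  · rw [h1, ← rawN_eq]; rfl
  · rw [h1, h0]; exact (nbeq_iff _ _).1 ha

end Cfsg.Agent.Spor.NM.F3x5
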